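import Cfsg.Agent.H876.OZU.Reg

/-!
# Centralisers of elements of order `r` in `PSU_n(q)`, `orderOf (-q : ZMod r) = n` or `n - 1` (helper876, S4842)
-/

set_option autoImplicit false
set_option linter.style.haveILetI false
set_option linter.unusedSectionVars false

namespace Cfsg.Agent.H876.OZU

open Matrix Subgroup Cfsg.Agent.H127.UnitRoots

section quot

variable {H : Type*} [Group H]

/-- lifting of elements of order `r` through a centre of exponent prime to `r` -/
theorem exists_lift {r N : ℕ} (hr : r.Prime) (hN : Nat.Coprime r N) (hZ : ∀ c ∈ center H, c ^ N = 1)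
    {z : H ⧸ center H} (hz : orderOf z = r) :
    ∃ g : H, (QuotientGroup.mk g : H ⧸ center H) = z ∧ g ^ r = 1 ∧ g ≠ 1 := by
  obtain ⟨g0, rfl⟩ := QuotientGroup.mk_surjective z
  have h1 : g0 ^ r ∈ center H := by
    rw [← QuotientGroup.eq_one_iff, QuotientGroup.mk_pow, ← hz, pow_orderOf_eq_one]
  obtain ⟨m, hm1, hm2⟩ := Nat.chineseRemainder hN 1 0
  obtain ⟨k, hk⟩ := (Nat.modEq_zero_iff_dvd).1 hm2
  refine ⟨g0 ^ m, ?_, ?_, ?_⟩
  · rw [QuotientGroup.mk_pow]
    conv_rhs => rw [← pow_one (QuotientGroup.mk g0 : H ⧸ center H)]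
    rw [pow_eq_pow_iff_modEq, hz]
    exact hm1
  · rw [← pow_mul, mul_comm, pow_mul, hk, pow_mul, hZ _ h1, one_pow]
  · intro h
    have h2 : (QuotientGroup.mk g0 : H ⧸ center H) ^ m = 1 := by
      rw [← QuotientGroup.mk_pow, h]; rfl
    have h3 : (QuotientGroup.mk g0 : H ⧸ center H) ^ m = (QuotientGroup.mk g0 : H ⧸ center H) ^ 1 := by
      rw [pow_eq_pow_iff_modEq, hz]
      exact hm1
    rw [h2, pow_one] at h3
    rw [← h3, orderOf_one] at hz
    exact hr.one_lt.ne hz

theorem comm_of_quot {r N : ℕ} (hN : Nat.Coprime r N) (hZ : ∀ c ∈ center H, c ^ N = 1) {g g' : H} (hg : g ^ r = 1)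
    (hg' : g' ^ r = 1) {y : H}
    (h : (QuotientGroup.mk y : H ⧸ center H) * QuotientGroup.mk g = QuotientGroup.mk g' * QuotientGroup.mk y) :
    y * g = g' * y := by
  rw [← QuotientGroup.mk_mul, ← QuotientGroup.mk_mul, QuotientGroup.eq] at h
  obtain ⟨c, hc⟩ : ∃ c, c = (y * g)⁻¹ * (g' * y) := ⟨_, rfl⟩
  rw [← hc] at h
  have h1 : y⁻¹ * g' * y = g * c := by rw [hc]; group
  have h2 : (y⁻¹ * g' * y) ^ r = 1 := by
    have : y⁻¹ * g' * y = y⁻¹ * g' * (y⁻¹)⁻¹ := by rw [inv_inv]
    rw [this, conj_pow, hg']; group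
  rw [h1, (show Commute g c from (mem_center_iff.1 h g)).mul_pow, hg, one_mul] at h2
  have h3 : c = 1 := by
    rw [← orderOf_eq_one_iff]
    apply Nat.eq_one_of_dvd_coprimes hN
    · exact orderOf_dvd_of_pow_eq_one h2
    · exact orderOf_dvd_of_pow_eq_one (hZ c h)
  rw [h3, mul_one] at h1
  rw [← h1]; group

theorem cent_quot {r N : ℕ} (hN : Nat.Coprime r N) (hZ : ∀ c ∈ center H, c ^ N = 1) {g : H} (hg : g ^ r = 1) :
    centralizer ({(QuotientGroup.mk g : H ⧸ center H)} : Set (H ⧸ center H)) =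
      (centralizer ({g} : Set H)).map (QuotientGroup.mk' (center H)) := by
  ext x
  rw [mem_centralizer_singleton_iff, mem_map]
  constructor
  · intro h
    obtain ⟨y, rfl⟩ := QuotientGroup.mk_surjective x
    exact ⟨y, mem_centralizer_singleton_iff.2 (comm_of_quot hN hZ hg hg h), rfl⟩
  · rintro ⟨y, hy, rfl⟩
    have := mem_centralizer_singleton_iff.1 hy
    change (QuotientGroup.mk y : H ⧸ center H) * QuotientGroup.mk g = QuotientGroup.mk g * QuotientGroup.mk y
    rw [← QuotientGroup.mk_mul, this, QuotientGroup.mk_mul]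

end quot

section main

variable {F : Type*} [Field F] [Fintype F] {q n : ℕ}

theorem center_pow (hF : Fintype.card F = q ^ 2) (hn : 3 ≤ n) :
    ∀ c ∈ center (Cfsg.SU n F q), c ^ (q + 1) = 1 := by
  intro c hc
  obtain ⟨s, hcn, hcq, rfl⟩ := (Cfsg.Agent.LieClassical.SUBasic.mem_center_SU_iff hF hn c).1 hc
  apply Subtype.ext
  apply Subtype.ext
  change mat ((Cfsg.Agent.LieClassical.SUBasic.suScalar q s hcn hcq : Cfsg.SU n F q) ^ (q + 1)) = 1
  rw [mat_pow]
  change (Matrix.diagonal (fun _ => s)) ^ (q + 1) = (1 : Matrix (Fin n) (Fin n) F)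
  rw [Matrix.diagonal_pow]
  have : (fun _ : Fin n => s) ^ (q + 1) = fun _ => 1 := by
    ext i
    rw [Pi.pow_apply, hcq]
  rw [this, Matrix.diagonal_one]

theorem coprime_succ {r d : ℕ} (hr : r.Prime) (hd : orderOf (-(q : ZMod r)) = d) (h2 : 2 ≤ d) :
    Nat.Coprime r (q + 1) := by
  rw [Nat.Prime.coprime_iff_not_dvd hr]
  intro h
  have h1 : (-(q : ZMod r)) = 1 := by
    have := (ZMod.natCast_eq_zero_iff (q + 1) r).2 h
    push_cast at this
    linear_combination -this
  rw [h1, orderOf_one] at hd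
  omega

/-- the data attached to an element of order `r` of `SU_n(q)` -/
theorem exists_reg (hF : Fintype.card F = q ^ 2) {r d p : ℕ} (hr : r.Prime) [hp : Fact p.Prime] [CharP F p]
    (hrp : r ≠ p) (hd : orderOf (-(q : ZMod r)) = d) (h2 : 2 ≤ d) (hdn : d = n ∨ d + 1 = n) {g : Cfsg.SU n F q}
    (hg : g ^ r = 1) (hg1 : g ≠ 1) : Nonempty (RegData q (AlgebraicClosure F) r d (mat g)) := by
  have hq : q ≠ 0 := by
    rintro rfl
    have := Fintype.card_pos (α := F)
    rw [hF] at this
    simp at this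
  haveI : CharP (AlgebraicClosure F) p := charP_of_injective_algebraMap (algebraMap F (AlgebraicClosure F)).injective p
  have hrK : (r : AlgebraicClosure F) ≠ 0 := by
    intro h
    have := (CharP.cast_eq_zero_iff (AlgebraicClosure F) p r).1 h
    exact hrp ((Nat.prime_dvd_prime_iff_eq hp.out hr).1 this).symm
  haveI : NeZero (r : AlgebraicClosure F) := ⟨hrK⟩
  obtain ⟨ζ, hζ⟩ := HasEnoughRootsOfUnity.exists_primitiveRoot (AlgebraicClosure F) r
  refine exists_regData hF hr hd h2 hdn hrK hζ (mat_unit g hq) (mat_det g) ?_ ?_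
  · rw [← mat_pow, hg]; rfl
  · intro h
    apply hg1
    apply Subtype.ext
    apply Subtype.ext
    exact h

/-- the eigenvalue map -/
theorem exists_hom {r d : ℕ} (hF : Fintype.card F = q ^ 2) (hdn : d = n ∨ d + 1 = n) {g : Cfsg.SU n F q}
    (R : RegData q (AlgebraicClosure F) r d (mat g)) :
    ∃ f : ↥(centralizer ({g} : Set (Cfsg.SU n F q))) →* AlgebraicClosure F, Function.Injective f := by
  classical
  have hq : q ≠ 0 := by
    rintro rfl
    have := Fintype.card_pos (α := F)
    rw [hF] at this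
    simp at this
  have hex : ∀ x : ↥(centralizer ({g} : Set (Cfsg.SU n F q))), ∃ c : Fin n → AlgebraicClosure F,
      (mat x.1).map (algebraMap F (AlgebraicClosure F)) * R.P = R.P * Matrix.diagonal c := by
    intro x
    apply R.exists_diag
    have := mem_centralizer_singleton_iff.1 x.2
    exact congrArg mat this
  choose c hc using hex
  have huniq : ∀ (a b : Fin n → AlgebraicClosure F), R.P * Matrix.diagonal a = R.P * Matrix.diagonal b → a = b := by
    intro a b h
    exact Matrix.diagonal_injective (R.unit.mul_left_cancel h)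
  have hone : c 1 = 1 := by
    apply huniq
    rw [← hc]
    have : mat ((1 : ↥(centralizer ({g} : Set (Cfsg.SU n F q)))) : Cfsg.SU n F q) = 1 := rfl
    rw [this, Matrix.map_one _ (map_zero _) (map_one _), Matrix.diagonal_one', Matrix.one_mul, Matrix.mul_one]
  have hmul : ∀ x y, c (x * y) = c x * c y := by
    intro x y
    apply huniq
    rw [← hc]
    have : mat ((x * y : ↥(centralizer ({g} : Set (Cfsg.SU n F q)))) : Cfsg.SU n F q) = mat x.1 * mat y.1 := rfl
    rw [this, Matrix.map_mul, Matrix.mul_assoc, hc, ← Matrix.mul_assoc, hc, Matrix.mul_assoc,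
      Matrix.diagonal_mul_diagonal]
    rfl
  refine ⟨⟨⟨fun x => c x R.j0, by rw [hone]; rfl⟩, fun x y => by
    change c (x * y) R.j0 = _
    rw [hmul]; rfl⟩, ?_⟩
  rw [injective_iff_map_eq_one]
  intro x hx
  have h1 : c x R.j0 = 1 := hx
  have h2 := R.rigid hdn (mat_unit x.1 hq) (mat_det x.1) (hc x) h1
  apply Subtype.ext
  apply Subtype.ext
  apply Subtype.ext
  exact h2

/-- **Centralisers of elements of order `r`** -/
theorem cent_data (hF : Fintype.card F = q ^ 2) (hn : 3 ≤ n) {r d p : ℕ} (hr : r.Prime) [hp : Fact p.Prime] [CharP F p]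
    (hrp : r ≠ p) (hd : orderOf (-(q : ZMod r)) = d) (h2 : 2 ≤ d) (hdn : d = n ∨ d + 1 = n) {z : Cfsg.PSU n F q}
    (hz : orderOf z = r) : IsCyclic ↥(centralizer ({z} : Set (Cfsg.PSU n F q))) ∧
      Nat.Coprime p (Nat.card (centralizer ({z} : Set (Cfsg.PSU n F q)))) ∧
      (r ≤ d + 1 ∨ ∃ i : ℕ, i.Coprime r ∧ ¬ IsConj z (z ^ i)) := by
  classical
  have hcop := coprime_succ hr hd h2
  obtain ⟨g, hgz, hgr, hg1⟩ := exists_lift hr hcop (center_pow hF hn) hz
  obtain ⟨R⟩ := exists_reg hF hr hrp hd h2 hdn hgr hg1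
  obtain ⟨f, hf⟩ := exists_hom hF hdn R
  haveI : CharP (AlgebraicClosure F) p := charP_of_injective_algebraMap (algebraMap F (AlgebraicClosure F)).injective p
  haveI : Finite (Cfsg.SU n F q) := inferInstance
  have hcyc : IsCyclic ↥(centralizer ({g} : Set (Cfsg.SU n F q))) := isCyclic_of_injective_ringHom f hf
  have hcard : Nat.Coprime p (Nat.card (centralizer ({g} : Set (Cfsg.SU n F q)))) := by
    rw [Nat.Prime.coprime_iff_not_dvd hp.out]
    intro hdvd
    obtain ⟨x, hx⟩ := exists_prime_orderOf_dvd_card' p hdvd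
    have h3 : f x ^ p = 1 := by rw [← map_pow, ← hx, pow_orderOf_eq_one, map_one]
    have h4 : (f x - 1) ^ p = 0 := by rw [sub_pow_char, h3, one_pow, sub_self]
    have h5 : f x = 1 := sub_eq_zero.1 (pow_eq_zero_iff hp.out.ne_zero |>.1 h4)
    have h6 : x = 1 := hf (h5.trans (map_one f).symm)
    rw [h6, orderOf_one] at hx
    exact hp.out.one_lt.ne hx
  have hcent := cent_quot hcop (center_pow hF hn) hgr
  rw [hgz] at hcent
  refine ⟨?_, ?_, ?_⟩
  · rw [hcent]
    exact isCyclic_of_surjective ((QuotientGroup.mk' (center (Cfsg.SU n F q))).subgroupMap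
      (centralizer ({g} : Set (Cfsg.SU n F q)))) (MonoidHom.subgroupMap_surjective _ _)
  · rw [hcent]
    exact hcard.coprime_dvd_right (Subgroup.card_map_dvd _ _)
  · by_contra hno
    push Not at hno
    obtain ⟨h3, h4⟩ := hno
    have h5 := R.le_of_conj hr hdn (fun i hi => by
      obtain ⟨y, hy⟩ := isConj_iff.1 (h4 i hi)
      obtain ⟨x, rfl⟩ := QuotientGroup.mk_surjective y
      rw [← hgz, ← QuotientGroup.mk_pow, mul_inv_eq_iff_eq_mul] at hy
      have h6 := comm_of_quot hcop (center_pow hF hn) (g := g) (g' := g ^ i) hgr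
        (by rw [← pow_mul, mul_comm, pow_mul, hgr, one_pow]) hy
      refine ⟨mat x, ?_, ?_⟩
      · rw [Matrix.isUnit_iff_isUnit_det, mat_det]
        exact isUnit_one
      · have := congrArg mat h6
        rwa [mat_mul, mat_mul, mat_pow] at this)
    omega

end main

end Cfsg.Agent.H876.OZU
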