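import Cfsg.Agent.H876.OZU.Cent
import Cfsg.Agent.H72.AdjPSUW
import Cfsg.Agent.H732.VZ.Bridge

/-!
# Isolated primes of `PSU_n(q)` (helper876, S4842)

`iso_psu` : `r ≠ p` prime with `orderOf (-q : ZMod r) = n` or `n - 1` (`2 ≤ n - 1`), not `(n, q, r) = (4, 2, 5)`, `(4, 3, 5)`,
`(6, 2, 7)`, is isolated; `cong_psu`.
-/

set_option autoImplicit false
set_option linter.style.haveILetI false
set_option linter.unusedSectionVars false

namespace Cfsg.Agent.H876.OZU

open Matrix Subgroup Cfsg.Agent.H127.UnitRoots Cfsg.Agent.H732.VZ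

section abs

universe u

variable {G : Type u} [Group G] [Finite G] {p r : ℕ}

theorem iso_of (hr : r.Prime) (hrp : r ≠ p)
    (hc : ∀ z : G, orderOf z = r → IsCyclic ↥(centralizer ({z} : Set G)) ∧
      Nat.Coprime p (Nat.card (centralizer ({z} : Set G)))) {z : G} (hz : orderOf z = r)
    (h4 : Nat.card (centralizer ({z} : Set G)) ≠ r ∨ ∃ m : ℕ, ¬ r ∣ m ∧ ¬ IsConj z (z ^ m)) : Iso G p r := by
  classical
  haveI : Fact r.Prime := ⟨hr⟩
  have hpz : IsPGroup r (zpowers z) := IsPGroup.of_card (n := 1) (by rw [Nat.card_zpowers, hz, pow_one])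
  obtain ⟨R, hR⟩ := hpz.exists_le_sylow
  have hzR : z ∈ (R : Subgroup G) := hR (mem_zpowers z)
  have hnt : Nontrivial ↥(R : Subgroup G) := by
    refine ⟨⟨⟨z, hzR⟩, 1, fun h => ?_⟩⟩
    have : z = 1 := congrArg Subtype.val h
    rw [this, orderOf_one] at hz
    exact hr.one_lt.ne hz
  have hcn : Nontrivial ↥(center ↥(R : Subgroup G)) := R.2.center_nontrivial
  have hpc : IsPGroup r ↥(center ↥(R : Subgroup G)) := R.2.to_subgroup _
  obtain ⟨x, hx⟩ : ∃ x : ↥(center ↥(R : Subgroup G)), orderOf x = r := by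
    apply exists_prime_orderOf_dvd_card'
    obtain ⟨k, hk⟩ := hpc.exists_card_eq
    rcases Nat.eq_zero_or_pos k with h0 | h0
    · rw [h0, pow_zero] at hk
      exact absurd hk (Finite.one_lt_card_iff_nontrivial.2 hcn).ne'
    · rw [hk]; exact dvd_pow_self r h0.ne'
  set w : G := ((x : ↥(R : Subgroup G)) : G) with hw
  have hwo : orderOf w = r := by rw [hw, Subgroup.orderOf_coe, Subgroup.orderOf_coe, hx]
  have hRw : (R : Subgroup G) ≤ centralizer ({w} : Set G) := by
    intro y hy
    rw [mem_centralizer_singleton_iff]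
    have := mem_center_iff.1 x.2 ⟨y, hy⟩
    exact congrArg Subtype.val this
  have hRc : IsCyclic ↥(R : Subgroup G) := by
    haveI := (hc w hwo).1
    exact isCyclic_of_injective (Subgroup.inclusion hRw) (Subgroup.inclusion_injective hRw)
  have hRz : (R : Subgroup G) ≤ centralizer ({z} : Set G) := by
    intro y hy
    rw [mem_centralizer_singleton_iff]
    have := (IsCyclic.commGroup (α := ↥(R : Subgroup G))).mul_comm ⟨y, hy⟩ ⟨z, hzR⟩
    exact congrArg Subtype.val this
  have hC : centralizer ({z} : Set G) ≤ centralizer ((R : Subgroup G) : Set G) := by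
    intro y hy
    rw [mem_centralizer_iff]
    intro t ht
    haveI := (hc z hz).1
    have := (IsCyclic.commGroup (α := ↥(centralizer ({z} : Set G)))).mul_comm ⟨t, hRz ht⟩ ⟨y, hy⟩
    exact congrArg Subtype.val this
  exact Iso.of_sylow hrp R hRc hz hzR hC (hc z hz).2 h4

/-- an element of order `N > r`, `r ∣ N` -/
theorem iso_of_order (hr : r.Prime) (hrp : r ≠ p)
    (hc : ∀ z : G, orderOf z = r → IsCyclic ↥(centralizer ({z} : Set G)) ∧
      Nat.Coprime p (Nat.card (centralizer ({z} : Set G)))) {t : G} {N : ℕ} (ht : orderOf t = N) (hrN : r ∣ N)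
    (hlt : r < N) : Iso G p r := by
  have h1 : orderOf (t ^ (N / r)) = r := by
    rw [← ht]
    exact orderOf_pow_orderOf_div (by omega) (by rw [ht]; exact hrN)
  refine iso_of hr hrp hc h1 (Or.inl ?_)
  have h2 : t ∈ centralizer ({t ^ (N / r)} : Set G) := by
    rw [mem_centralizer_singleton_iff]
    exact ((Commute.refl t).pow_right _).eq
  have h3 : orderOf t ∣ Nat.card (centralizer ({t ^ (N / r)} : Set G)) := by
    have := orderOf_dvd_natCard (⟨t, h2⟩ : ↥(centralizer ({t ^ (N / r)} : Set G)))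
    rwa [Subgroup.orderOf_mk] at this
  have h4 := Nat.le_of_dvd Nat.card_pos h3
  omega

end abs

section arith

theorem dvd_sub_one {r q d : ℕ} (hr : r.Prime) (hrq : ¬ r ∣ q) (hd : orderOf (-(q : ZMod r)) = d) : d ∣ r - 1 := by
  haveI : Fact r.Prime := ⟨hr⟩
  rw [← hd]
  apply orderOf_dvd_of_pow_eq_one
  apply ZMod.pow_card_sub_one_eq_one
  rw [neg_ne_zero]
  intro h
  exact hrq ((ZMod.natCast_eq_zero_iff q r).1 h)

theorem not_dvd_of_order {r q d : ℕ} (hr : r.Prime) (hd : orderOf (-(q : ZMod r)) = d) (h2 : 2 ≤ d) : ¬ r ∣ q := by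
  haveI : Fact r.Prime := ⟨hr⟩
  intro h
  have h1 : (q : ZMod r) = 0 := (ZMod.natCast_eq_zero_iff q r).2 h
  rw [h1, neg_zero] at hd
  have : orderOf (0 : ZMod r) = 0 := by
    rw [orderOf_eq_zero_iff']
    intro m hm
    rw [zero_pow hm.ne']
    exact zero_ne_one
  omega

/-- `D > r = n + 1` with `r ∣ D ∣ q ^ n - 1` prime to `q + 1` -/
theorem exists_D {n q r : ℕ} (hr : r.Prime) (hrn : r = n + 1) (hn4 : 4 ≤ n) (hn2 : Even n) (hq : 2 ≤ q)
    (hord : orderOf (-(q : ZMod r)) = n) (hex : ¬ (n = 4 ∧ q ≤ 3) ∧ ¬ (n = 6 ∧ q = 2)) :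
    ∃ D, r ∣ D ∧ r < D ∧ D ∣ q ^ n - 1 ∧ Nat.Coprime D (q + 1) := by
  haveI : Fact r.Prime := ⟨hr⟩
  obtain ⟨m, hm⟩ := hn2
  have hm2 : n = 2 * m := by omega
  have hhalf : (-(q : ZMod r)) ^ m = -1 := by
    have h1 : ((-(q : ZMod r)) ^ m) ^ 2 = 1 := by
      rw [← pow_mul, mul_comm, ← hm2, ← hord, pow_orderOf_eq_one]
    have h2 : ((-(q : ZMod r)) ^ m - 1) * ((-(q : ZMod r)) ^ m + 1) = 0 := by linear_combination h1
    rcases (mul_eq_zero.1 h2).imp sub_eq_zero.1 eq_neg_of_add_eq_zero_left with h | h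
    · exfalso
      have := orderOf_dvd_of_pow_eq_one h
      rw [hord] at this
      have := Nat.le_of_dvd (by omega) this
      omega
    · exact h
  rcases Nat.even_or_odd m with hme | hmo
  · -- `4 ∣ n`
    obtain ⟨k, hk⟩ := hme
    have hk2 : m = 2 * k := by omega
    have hk1 : 1 ≤ k := by omega
    have hrd : r ∣ q ^ m + 1 := by
      rw [Even.neg_pow (by rw [hk2]; exact even_two_mul k)] at hhalf
      rw [← ZMod.natCast_eq_zero_iff]
      push_cast
      rw [hhalf]; ring
    have hdvd : q ^ m + 1 ∣ q ^ n - 1 := by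
      have : q ^ n - 1 = (q ^ m + 1) * (q ^ m - 1) := by
        rw [hm2, mul_comm 2 m, pow_mul]
        have := Nat.sq_sub_sq (q ^ m) 1
        rwa [one_pow] at this
      rw [this]
      exact dvd_mul_right _ _
    have hmod : ∀ s, s.Prime → s ∣ q ^ m + 1 → s ∣ q + 1 → s = 2 := by
      intro s hs h1 h2
      haveI : Fact s.Prime := ⟨hs⟩
      have h3 : (q : ZMod s) = -1 := by
        have := (ZMod.natCast_eq_zero_iff (q + 1) s).2 h2
        push_cast at this
        linear_combination this
      have h4 : ((q : ZMod s)) ^ m + 1 = 0 := by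
        have := (ZMod.natCast_eq_zero_iff (q ^ m + 1) s).2 h1
        push_cast at this
        exact this
      rw [h3, Even.neg_one_pow (by rw [hk2]; exact even_two_mul k)] at h4
      have h5 : ((2 : ℕ) : ZMod s) = 0 := by push_cast; linear_combination h4
      exact (Nat.prime_dvd_prime_iff_eq hs Nat.prime_two).1 ((ZMod.natCast_eq_zero_iff 2 s).1 h5)
    have hr2 : r ≠ 2 := by omega
    rcases Nat.even_or_odd q with hqe | hqo
    · refine ⟨q ^ m + 1, hrd, ?_, hdvd, ?_⟩
      · have hsize : 2 * m + 1 < q ^ m + 1 := by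
          rcases Nat.lt_or_ge k 2 with hk3 | hk3
          · have hk4 : k = 1 := by omega
            have hq4 : 4 ≤ q := by
              by_contra hlt
              exact hex.1 ⟨by omega, by omega⟩
            rw [hk2, hk4, mul_one, pow_two]
            nlinarith
          · have h1 : 2 * m < 2 ^ m := by
              have : 4 ≤ m := by omega
              clear * - this
              induction m, this using Nat.le_induction with
              | base => norm_num
              | succ j hj ih => rw [pow_succ]; omega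
            have h2 : 2 ^ m ≤ q ^ m := Nat.pow_le_pow_left hq m
            omega
        omega
      · rw [Nat.coprime_iff_gcd_eq_one]
        by_contra hne
        obtain ⟨s, hs, hsd⟩ := Nat.exists_prime_and_dvd hne
        have h1 := hsd.trans (Nat.gcd_dvd_left _ _)
        have h2 := hmod s hs h1 (hsd.trans (Nat.gcd_dvd_right _ _))
        rw [h2] at h1
        have h3 : Even (q ^ m) := hqe.pow_of_ne_zero (by omega)
        have h4 : Odd (q ^ m + 1) := h3.add_one
        exact (Nat.not_even_iff_odd.2 h4) (even_iff_two_dvd.2 h1)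
    · -- `q` odd
      obtain ⟨D, hD⟩ : 2 ∣ q ^ m + 1 := even_iff_two_dvd.1 (hqo.pow.add_one)
      have hDodd : Odd D := by
        -- q ^ m ≡ 1 mod 4
        have h1 : q ^ m % 4 = 1 := by
          have h2 : q ^ 2 % 4 = 1 := by
            obtain ⟨t, rfl⟩ := hqo
            have : (2 * t + 1) ^ 2 = 4 * (t * t + t) + 1 := by ring
            rw [this]; omega
          rw [hk2, pow_mul, Nat.pow_mod, h2, one_pow]
          rfl
        rw [Nat.odd_iff]
        omega
      refine ⟨D, ?_, ?_, (Dvd.intro_left 2 hD.symm).trans hdvd, ?_⟩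
      · have h1 : r ∣ 2 * D := hD ▸ hrd
        rcases hr.dvd_mul.1 h1 with h2 | h2
        · exact absurd ((Nat.prime_dvd_prime_iff_eq hr Nat.prime_two).1 h2) hr2
        · exact h2
      · have hsize : 4 * m + 2 < q ^ m + 1 := by
          rcases Nat.lt_or_ge k 2 with hk3 | hk3
          · have hk4 : k = 1 := by omega
            have hq4 : 5 ≤ q := by
              by_contra hlt
              have h4 : ¬ q ≤ 3 := fun h => hex.1 ⟨by omega, h⟩
              have h5 : q = 4 := by omega
              rw [h5] at hqo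
              exact (Nat.not_even_iff_odd.2 hqo) (by decide)
            rw [hk2, hk4, mul_one, pow_two]
            nlinarith
          · have hq3 : 3 ≤ q := by
              obtain ⟨t, rfl⟩ := hqo
              omega
            have h1 : 4 * m + 1 < 3 ^ m := by
              have : 4 ≤ m := by omega
              clear * - this
              induction m, this using Nat.le_induction with
              | base => norm_num
              | succ j hj ih => rw [pow_succ]; omega
            have h2 : 3 ^ m ≤ q ^ m := Nat.pow_le_pow_left hq3 m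
            omega
        omega
      · rw [Nat.coprime_iff_gcd_eq_one]
        by_contra hne
        obtain ⟨s, hs, hsd⟩ := Nat.exists_prime_and_dvd hne
        have h1 := hsd.trans (Nat.gcd_dvd_left _ _)
        have h2 := hmod s hs (h1.trans (Dvd.intro_left 2 hD.symm)) (hsd.trans (Nat.gcd_dvd_right _ _))
        rw [h2] at h1
        exact (Nat.not_even_iff_odd.2 hDodd) (even_iff_two_dvd.2 h1)
  · -- `n = 2 m`, `m` odd
    have hm3 : 3 ≤ m := by
      obtain ⟨t, ht⟩ := hmo
      omega
    set D := ∑ i ∈ Finset.range m, q ^ i with hDdef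
    have hDmul : D * (q - 1) = q ^ m - 1 := by
      have h1 := Nat.geomSum_eq hq m
      have h2 : (q - 1) ∣ (q ^ m - 1) := by
        have := Nat.sub_dvd_pow_sub_pow q 1 m
        rwa [one_pow] at this
      rw [hDdef, h1, Nat.div_mul_cancel h2]
    have hqm : (q : ZMod r) ^ m = 1 := by
      rw [hmo.neg_pow] at hhalf
      exact neg_injective hhalf
    have hrD : r ∣ D := by
      have h1 : r ∣ D * (q - 1) := by
        rw [hDmul, ← ZMod.natCast_eq_zero_iff, Nat.cast_sub (Nat.one_le_pow _ _ (by omega))]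
        push_cast
        rw [hqm, sub_self]
      rcases hr.dvd_mul.1 h1 with h2 | h2
      · exact h2
      · exfalso
        have h3 : (q : ZMod r) = 1 := by
          have := (ZMod.natCast_eq_zero_iff (q - 1) r).2 h2
          rw [Nat.cast_sub (by omega)] at this
          push_cast at this
          exact sub_eq_zero.1 this
        have h4 : (-(q : ZMod r)) ^ 2 = 1 := by rw [h3]; ring
        have := orderOf_dvd_of_pow_eq_one h4
        rw [hord] at this
        have := Nat.le_of_dvd (by omega) this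
        omega
    refine ⟨D, hrD, ?_, ?_, ?_⟩
    · have hge : 2 * m + 1 < D := by
        rcases Nat.lt_or_ge m 4 with h1 | h1
        · have h2 : m = 3 := by omega
          have h3 : 3 ≤ q := by
            by_contra hlt
            exact hex.2 ⟨by omega, by omega⟩
          rw [hDdef, h2]
          simp only [Finset.sum_range_succ, Finset.sum_range_zero]
          nlinarith
        · have h2 : 2 ^ m - 1 ≤ D := by
            have h3 : ∑ i ∈ Finset.range m, 2 ^ i ≤ D := Finset.sum_le_sum fun i _ => Nat.pow_le_pow_left hq i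
            have h4 := Nat.geomSum_eq (le_refl 2) m
            rw [h4] at h3
            simpa using h3
          have h3 : 2 * m + 2 < 2 ^ m := by
            clear * - h1
            induction m, h1 using Nat.le_induction with
            | base => norm_num
            | succ j hj ih => rw [pow_succ]; omega
          omega
      omega
    · have h1 : D ∣ q ^ m - 1 := Dvd.intro _ hDmul
      refine h1.trans ?_
      have : q ^ n - 1 = (q ^ m + 1) * (q ^ m - 1) := by
        rw [hm2, mul_comm 2 m, pow_mul]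
        have := Nat.sq_sub_sq (q ^ m) 1
        rwa [one_pow] at this
      rw [this]
      exact dvd_mul_left _ _
    · rw [Nat.coprime_iff_gcd_eq_one]
      by_contra hne
      obtain ⟨s, hs, hsd⟩ := Nat.exists_prime_and_dvd hne
      haveI : Fact s.Prime := ⟨hs⟩
      have h1 := hsd.trans (Nat.gcd_dvd_left _ _)
      have h2 := hsd.trans (Nat.gcd_dvd_right _ _)
      have h3 : (q : ZMod s) = -1 := by
        have := (ZMod.natCast_eq_zero_iff (q + 1) s).2 h2
        push_cast at this
        linear_combination this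
      have h4 : ((D : ℕ) : ZMod s) = 1 := by
        rw [hDdef]
        push_cast
        rw [h3]
        obtain ⟨t, ht⟩ := hmo
        rw [ht, Finset.sum_range_succ, neg_one_geom_sum, if_pos (even_two_mul t)]
        rw [Even.neg_one_pow (even_two_mul t)]
        ring
      rw [(ZMod.natCast_eq_zero_iff D s).2 h1] at h4
      exact zero_ne_one h4

end arith

section main

variable {F : Type*} [Field F] [Fintype F] {q n : ℕ}

open Cfsg.Agent.H186 Cfsg.Agent.ClassicalGeometry.GUBasic Cfsg.Agent.H103.UniBlock Cfsg.Agent.H72.AdjPSU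

/-- an element of order `r (q + 1)` in `PSU_{d+1}(q)`, `r = d + 1` -/
theorem exists_order_succ (hF : Fintype.card F = q ^ 2) (hn : 3 ≤ n) {r d : ℕ} (_hr : r.Prime) (hdn : d + 1 = n)
    (hrd : r = d + 1) (hco : Nat.Coprime r (q + 1)) (h1 : HasBlock F q d r) :
    ∃ z : Cfsg.PSU n F q, orderOf z = r * (q + 1) := by
  classical
  obtain ⟨A, hA, hAd, hA1, hA2⟩ := h1
  have hq := two_le hF
  obtain ⟨y, hy⟩ := IsCyclic.exists_generator (α := Fˣ)
  have hordy : orderOf y = q ^ 2 - 1 := by
    rw [orderOf_eq_card_of_forall_mem_zpowers hy, Nat.card_units, Nat.card_eq_fintype_card, hF]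
  have hfac : q ^ 2 - 1 = (q + 1) * (q - 1) := by
    have := Nat.sq_sub_sq q 1
    rw [one_pow] at this
    exact this
  obtain ⟨a, ha⟩ : ∃ a, a = y ^ (q - 1) := ⟨_, rfl⟩
  have horda : orderOf a = q + 1 := by
    rw [ha, orderOf_pow' y (by omega), hordy, hfac, Nat.gcd_eq_right (dvd_mul_left _ _),
      Nat.mul_div_cancel _ (by omega)]
  have ha1 : (a : F) ^ (q + 1) = 1 := by
    rw [← Units.val_pow_eq_pow_val, ← horda, pow_orderOf_eq_one, Units.val_one]
  set b : Fˣ := (a ^ d)⁻¹ with hb
  have hb1 : (b : F) ^ (q + 1) = 1 := by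
    rw [← Units.val_pow_eq_pow_val, hb, inv_pow, ← pow_mul, mul_comm, pow_mul, ← horda, pow_orderOf_eq_one, one_pow,
      inv_one, Units.val_one]
  have hsm : ∀ {ι : Type} [Fintype ι] [DecidableEq ι] (c : F) (N : Matrix ι ι F), c ^ (q + 1) = 1 → Uni q N →
      Uni q (c • N) := by
    intro ι _ _ c N hc hN
    obtain ⟨x, hx, h1⟩ := hN
    refine ⟨x, hx, ?_⟩
    rw [st_smul, Matrix.smul_mul, Matrix.smul_mul, Matrix.mul_smul, smul_smul, ← pow_succ, hc, one_smul, h1]
  have hd0 : 0 < d := by omega
  have hNe : Nonempty (Fin d) := ⟨⟨0, hd0⟩⟩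
  let e : Fin n ≃ Fin d ⊕ Fin 1 := (finCongr hdn.symm).trans finSumFinEquiv.symm
  refine exists_order_of_index hF hn e (A := fromBlocks ((a : F) • A) 0 0 ((b : F) • (1 : Matrix (Fin 1) (Fin 1) F)))
    (uni_fromBlocks (by omega) (hsm _ _ ha1 hA) (hsm _ _ hb1 (uni_one hF))) ?_ (N := r * (q + 1)) ?_ _ dvd_rfl
  · rw [Matrix.det_fromBlocks_zero₂₁, Matrix.det_smul, Matrix.det_smul, hAd, Matrix.det_one, mul_one, mul_one,
      Fintype.card_fin, Fintype.card_fin, pow_one, ← Units.val_pow_eq_pow_val, ← Units.val_mul, hb, mul_inv_cancel,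
      Units.val_one]
  · intro k c hk
    rw [fromBlocks_pow] at hk
    obtain ⟨h3, h4⟩ := fromBlocks_eq_smul hk
    have h5 : (b : F) ^ k = c := by
      rw [smul_pow, one_pow] at h4
      have := congrFun (congrFun h4 0) 0
      simpa using this
    rw [smul_pow] at h3
    have hak0 : (a : F) ^ k ≠ 0 := pow_ne_zero _ a.ne_zero
    have h6 : A ^ k = (((a : F) ^ k)⁻¹ * c) • 1 := by
      rw [mul_smul, ← h3, smul_smul, inv_mul_cancel₀ hak0, one_smul]
    have h7 := pow_eq_one_of_scalar hd0 hA1 h6
    have h8 : (((a : F) ^ k)⁻¹ * c) ^ (q + 1) = 1 := scalar_pow hF (uni_of_eq h6 (uni_pow hF hA k))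
    have h9 : ((a : F) ^ k)⁻¹ * c = 1 := by
      rw [← orderOf_eq_one_iff]
      exact Nat.eq_one_of_dvd_coprimes hco (orderOf_dvd_of_pow_eq_one h7) (orderOf_dvd_of_pow_eq_one h8)
    rw [h9, one_smul] at h6
    have h10 := hA2 _ h6
    have h11 : c = (a : F) ^ k := by
      have : c = (a : F) ^ k * (((a : F) ^ k)⁻¹ * c) := by
        rw [← mul_assoc, mul_inv_cancel₀ hak0, one_mul]
      rw [this, h9, mul_one]
    have h12 : b ^ k = a ^ k := by
      apply Units.ext
      rw [Units.val_pow_eq_pow_val, Units.val_pow_eq_pow_val, h5, h11]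
    have h13 : a ^ (r * k) = 1 := by
      rw [hb, inv_pow, ← pow_mul] at h12
      rw [hrd, add_mul, one_mul, pow_add, ← h12, mul_inv_cancel]
    have h14 : q + 1 ∣ r * k := by
      rw [← horda]
      exact orderOf_dvd_of_pow_eq_one h13
    have h15 : q + 1 ∣ k := (Nat.Coprime.symm hco).dvd_of_dvd_mul_left h14
    exact Nat.Coprime.mul_dvd_of_dvd_of_dvd hco h10 h15

/-- **Isolated primes of `PSU_n(q)`.** -/
theorem iso_psu' (hF : Fintype.card F = q ^ 2) (hn : 3 ≤ n) {r d p : ℕ} (hr : r.Prime) [hp : Fact p.Prime] [CharP F p]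
    (hd : orderOf (-(q : ZMod r)) = d) (h2 : 2 ≤ d) (hdn : d = n ∨ d + 1 = n)
    (hex : d = n → r = n + 1 → ¬ (n = 4 ∧ q ≤ 3) ∧ ¬ (n = 6 ∧ q = 2)) : Iso (Cfsg.PSU n F q) p r := by
  classical
  have hq := two_le hF
  have hrq := not_dvd_of_order hr hd h2
  have hrp : r ≠ p := by
    rintro rfl
    obtain ⟨j, hj, hj1⟩ := exists_eq_pow hF r
    exact hrq (by rw [hj]; exact dvd_pow_self r (by omega))
  have hco := coprime_succ hr hd h2
  haveI : Finite (Cfsg.SU n F q) := inferInstance
  haveI : Finite (Cfsg.PSU n F q) := inferInstance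
  have hcd := fun (z : Cfsg.PSU n F q) (hz : orderOf z = r) => cent_data hF hn hr hrp hd h2 hdn hz
  have hc : ∀ z : Cfsg.PSU n F q, orderOf z = r → IsCyclic ↥(centralizer ({z} : Set (Cfsg.PSU n F q))) ∧
      Nat.Coprime p (Nat.card (centralizer ({z} : Set (Cfsg.PSU n F q)))) := fun z hz => ⟨(hcd z hz).1, (hcd z hz).2.1⟩
  have hblock : HasBlock F q d r := by
    have := nu_dvd (q := q) (by omega) r
    rw [show nu q r = d from hd] at this
    exact hasBlock_nu hF (by omega) this hco
  have hdr := dvd_sub_one hr hrq hd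
  have hr1 := hr.one_lt
  by_cases hrd : r = d + 1
  · rcases hdn with hdn | hdn
    · -- `d = n`, `r = n + 1`
      subst hdn
      have hodd : Odd r := hr.odd_of_ne_two (by omega)
      have heven : Even d := by
        obtain ⟨t, ht⟩ := hodd
        exact ⟨t, by omega⟩
      have hn4 : 4 ≤ d := by
        obtain ⟨t, ht⟩ := heven
        omega
      obtain ⟨D, hD1, hD2, hD3, hD4⟩ := exists_D hr hrd hn4 heven hq hd (hex rfl hrd)
      have hbD : HasBlock F q d D := hasBlock_nu hF (by omega) (by rw [if_pos heven]; exact hD3) hD4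
      obtain ⟨t, ht⟩ := exists_order_of_block hF hn hbD (by omega) le_rfl hD4 D dvd_rfl
      exact iso_of_order hr hrp hc ht hD1 hD2
    · obtain ⟨t, ht⟩ := exists_order_succ hF hn hr hdn hrd hco hblock
      exact iso_of_order hr hrp hc ht (dvd_mul_right _ _) (by nlinarith)
  · obtain ⟨z, hz⟩ := exists_order_of_block hF hn hblock (by omega) (by omega) hco r dvd_rfl
    refine iso_of hr hrp hc hz (Or.inr ?_)
    rcases (hcd z hz).2.2 with h3 | ⟨i, hi, hi2⟩
    · exfalso
      have := Nat.le_of_dvd (by omega) hdr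
      omega
    · exact ⟨i, fun h => hr.one_lt.ne' (Nat.Coprime.eq_one_of_dvd hi.symm h), hi2⟩

theorem iso_psu (hF : Fintype.card F = q ^ 2) (hn : 3 ≤ n) {r d p : ℕ} (hr : r.Prime) [hp : Fact p.Prime] [CharP F p]
    (hd : orderOf (-(q : ZMod r)) = d) (h2 : 2 ≤ d) (hdn : d = n ∨ d + 1 = n)
    (hex : ¬ (n = 4 ∧ q ≤ 3) ∧ ¬ (n = 6 ∧ q = 2)) : Iso (Cfsg.PSU n F q) p r :=
  iso_psu' hF hn hr hd h2 hdn fun _ _ => hex

end main

end Cfsg.Agent.H876.OZU
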