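import Cfsg.Agent.H127.UnitRoots

/-!
# Regular elements of prime order in `SU_n(q)` (helper876, S4842)

`r` prime, `r ∤ q`, `orderOf (-q : ZMod r) = d`, `d = n` or `d = n - 1`, `r ∤ q + 1`.  A matrix `M ≠ 1` of `SU_n(q)` with
`M ^ r = 1` has `n` distinct eigenvalues `λ ^ (-q) ^ k` (and `1` if `d = n - 1`), and its centraliser in `SU_n(q)` embeds
into the multiplicative group of a field.
-/

set_option autoImplicit false
set_option linter.style.haveILetI false
set_option linter.unusedSectionVars false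

namespace Cfsg.Agent.H876.OZU

open Matrix Cfsg.Agent.H127.UnitRoots

section diag

variable {F : Type*} [Field F]

/-- the unnormalised projection to the `ζ^j`-eigenspace -/
def prj {ι : Type} [Fintype ι] [DecidableEq ι] (ζ : F) (r : ℕ) (M : Matrix ι ι F) (j : ℕ) : Matrix ι ι F :=
  ∑ i ∈ Finset.range r, ((ζ⁻¹) ^ j • M) ^ i

theorem mul_geom {ι : Type} [Fintype ι] [DecidableEq ι] {r : ℕ} {N : Matrix ι ι F} (hN : N ^ r = 1) :
    N * ∑ i ∈ Finset.range r, N ^ i = ∑ i ∈ Finset.range r, N ^ i := by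
  have h1 : (N - 1) * ∑ i ∈ Finset.range r, N ^ i = 0 := by
    rw [mul_geom_sum, hN, sub_self]
  rw [sub_mul, one_mul, sub_eq_zero] at h1
  exact h1

theorem mul_prj {ι : Type} [Fintype ι] [DecidableEq ι] {ζ : F} {r : ℕ} (hζ : ζ ^ r = 1) (hr : 0 < r)
    {M : Matrix ι ι F} (hM : M ^ r = 1) (j : ℕ) : M * prj ζ r M j = ζ ^ j • prj ζ r M j := by
  have hζ0 : ζ ≠ 0 := by
    rintro rfl
    rw [zero_pow hr.ne'] at hζ
    exact zero_ne_one hζ
  have h1 : ((ζ⁻¹) ^ j • M) ^ r = 1 := by
    rw [smul_pow, hM, ← pow_mul, mul_comm j r, pow_mul, inv_pow, hζ, inv_one, one_pow, one_smul]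
  have h2 := mul_geom h1
  rw [Matrix.smul_mul] at h2
  have h3 : M * prj ζ r M j = ζ ^ j • ((ζ⁻¹) ^ j • (M * prj ζ r M j)) := by
    rw [smul_smul, ← mul_pow, mul_inv_cancel₀ hζ0, one_pow, one_smul]
  rw [h3]
  congr 1

theorem sum_prj {ι : Type} [Fintype ι] [DecidableEq ι] {ζ : F} {r : ℕ} (hζ : IsPrimitiveRoot ζ r) (hr : 0 < r)
    (M : Matrix ι ι F) : ∑ j ∈ Finset.range r, prj ζ r M j = (r : F) • (1 : Matrix ι ι F) := by
  have h1 : ∀ j i : ℕ, ((ζ⁻¹) ^ j • M) ^ i = ((ζ⁻¹) ^ i) ^ j • M ^ i := by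
    intro j i
    rw [smul_pow, ← pow_mul, ← pow_mul, mul_comm]
  simp only [prj, h1]
  rw [Finset.sum_comm, Finset.sum_eq_single 0]
  · simp only [pow_zero, one_pow, one_smul, Finset.sum_const, Finset.card_range]
    rw [← Nat.cast_smul_eq_nsmul F]
  · intro i hi hi0
    rw [← Finset.sum_smul]
    have h2 : (ζ⁻¹) ^ i ≠ 1 := by
      intro h
      rw [inv_pow, inv_eq_one] at h
      have := Nat.le_of_dvd (Nat.pos_of_ne_zero hi0) (hζ.dvd_of_pow_eq_one i h)
      have := Finset.mem_range.1 hi
      omega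
    rw [geom_sum_eq h2, ← pow_mul, mul_comm i r, pow_mul, inv_pow, hζ.pow_eq_one, inv_one, one_pow, sub_self,
      zero_div, zero_smul]
  · intro h
    exact absurd (Finset.mem_range.2 hr) h

/-- Diagonalisation (as in H960/Diag). -/
theorem exists_diag {ι : Type} [Fintype ι] [DecidableEq ι] {ζ : F} {r : ℕ} (hζ : IsPrimitiveRoot ζ r)
    (hr : 0 < r) (hrF : (r : F) ≠ 0) {M : Matrix ι ι F} (hM : M ^ r = 1) :
    ∃ B : Matrix ι ι F, IsUnit B ∧ ∃ s : ι → F, (∀ i, s i ^ r = 1) ∧ M * B = B * Matrix.diagonal s := by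
  classical
  set S : Set (ι → F) := {v | ∃ c : F, c ^ r = 1 ∧ M *ᵥ v = c • v} with hS
  have hspan : ⊤ ≤ Submodule.span F S := by
    intro v _
    have h1 : v = (r : F)⁻¹ • ∑ j ∈ Finset.range r, prj ζ r M j *ᵥ v := by
      rw [← Matrix.sum_mulVec, sum_prj hζ hr, Matrix.smul_mulVec, Matrix.one_mulVec, smul_smul, inv_mul_cancel₀ hrF,
        one_smul]
    rw [h1]
    refine Submodule.smul_mem _ _ (Submodule.sum_mem _ (fun j _ => Submodule.subset_span ?_))
    refine ⟨ζ ^ j, by rw [← pow_mul, mul_comm, pow_mul, hζ.pow_eq_one, one_pow], ?_⟩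
    rw [Matrix.mulVec_mulVec, mul_prj hζ.pow_eq_one hr hM, Matrix.smul_mulVec]
  obtain ⟨κ, b, hb⟩ : ∃ (κ : Type _) (b : Module.Basis κ F (ι → F)), ∀ i, b i ∈ S :=
    ⟨_, Module.Basis.ofSpan hspan, fun i => Module.Basis.ofSpan_subset hspan ⟨i, rfl⟩⟩
  have hfin : Fintype κ := FiniteDimensional.fintypeBasisIndex b
  have hcard : Fintype.card κ = Fintype.card ι := by
    rw [← Module.finrank_eq_card_basis b, Module.finrank_fintype_fun_eq_card]
  let e := Fintype.equivOfCardEq hcard
  let b' := b.reindex e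
  have hb' : ∀ i, b' i ∈ S := fun i => by
    rw [Module.Basis.reindex_apply]
    exact hb _
  choose s hs hsM using hb'
  let B : Matrix ι ι F := (Pi.basisFun F ι).toMatrix b'
  have hBu : IsUnit B := by
    have := Module.Basis.invertibleToMatrix (Pi.basisFun F ι) b'
    exact isUnit_of_invertible B
  have hcol : ∀ j, B *ᵥ (Pi.single j 1) = b' j := by
    intro j
    ext i
    simp [B, Module.Basis.toMatrix_apply]
  refine ⟨B, hBu, s, hs, ?_⟩
  apply Matrix.ext_of_mulVec_single
  intro j
  have hd : (Matrix.diagonal s : Matrix ι ι F) *ᵥ (Pi.single j 1) = s j • (Pi.single j 1 : ι → F) := by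
    ext i
    rw [Matrix.mulVec_diagonal, Pi.smul_apply, smul_eq_mul]
    by_cases hij : i = j
    · rw [hij]
    · rw [Pi.single_eq_of_ne hij, mul_zero, mul_zero]
  rw [← Matrix.mulVec_mulVec, hcol, hsM, ← Matrix.mulVec_mulVec, hd, Matrix.mulVec_smul, hcol]

end diag

section arith

/-- the exponents `(-q)^k`, `k < d`, are distinct modulo `r` -/
theorem exp_inj {r q d : ℕ} (hd : orderOf (-(q : ZMod r)) = d) {i j : ℕ} (hi : i < d) (hj : j < d)
    (h : (r : ℤ) ∣ (-(q : ℤ)) ^ i - (-(q : ℤ)) ^ j) : i = j := by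
  have h1 : (-(q : ZMod r)) ^ i = (-(q : ZMod r)) ^ j := by
    have h2 := (ZMod.intCast_zmod_eq_zero_iff_dvd _ r).2 h
    push_cast at h2
    exact sub_eq_zero.1 h2
  exact pow_injOn_Iio_orderOf (by rw [hd]; exact hi) (by rw [hd]; exact hj) h1

/-- the sum of the exponents is `0` modulo `r` -/
theorem exp_sum {r q d : ℕ} (hr : r.Prime) (hd : orderOf (-(q : ZMod r)) = d) (h2 : 2 ≤ d) :
    (r : ℤ) ∣ ∑ i ∈ Finset.range d, (-(q : ℤ)) ^ i := by
  haveI : Fact r.Prime := ⟨hr⟩
  rw [← ZMod.intCast_zmod_eq_zero_iff_dvd]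
  push_cast
  have hne : (-(q : ZMod r)) ≠ 1 := by
    intro h
    rw [h, orderOf_one] at hd
    omega
  have h1 := geom_sum_eq hne d
  rw [h1, ← hd, pow_orderOf_eq_one, sub_self, zero_div]

end arith

section main

variable {F : Type*} [Field F] [Fintype F] {q n : ℕ} {K : Type*} [Field K] [Algebra F K]

/-- the form matrix in a basis of eigenvectors -/
theorem exists_next (hF : Fintype.card F = q ^ 2) {P : Matrix (Fin n) (Fin n) K} (hP : IsUnit P) :
    ∃ π : Fin n → Fin n, ∀ (X : Matrix (Fin n) (Fin n) F) (c : Fin n → K), Xᵀ * X.map (fun x => x ^ q) = 1 →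
      X.map (algebraMap F K) * P = P * Matrix.diagonal c → ∀ j, c (π j) * c j ^ q = 1 := by
  classical
  obtain ⟨σ, hσ⟩ := exists_pow_hom hF K
  set J : Matrix (Fin n) (Fin n) K := Pᵀ * P.map σ with hJ
  have hJu : IsUnit J := by
    have h1 : IsUnit P.det := (Matrix.isUnit_iff_isUnit_det P).1 hP
    rw [Matrix.isUnit_iff_isUnit_det, hJ, Matrix.det_mul, Matrix.det_transpose]
    refine h1.mul ?_
    have h2 : (P.map σ).det = σ P.det := by
      rw [RingHom.map_det]; rfl
    rw [h2]
    exact h1.map σ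
  have hcol : ∀ j, ∃ i, J i j ≠ 0 := by
    intro j
    by_contra hno
    push Not at hno
    have h1 := Matrix.det_eq_zero_of_column_eq_zero j hno
    have h2 := (Matrix.isUnit_iff_isUnit_det J).1 hJu
    rw [h1] at h2
    exact not_isUnit_zero h2
  choose π hπ using hcol
  refine ⟨π, fun X c hX hXP j => ?_⟩
  have hN := map_unit (K := K) hF hX σ hσ
  set N := X.map (algebraMap F K) with hNdef
  have h1 : (N * P)ᵀ * (N * P).map σ = J := by
    rw [Matrix.transpose_mul, Matrix.map_mul, hJ]
    calc Pᵀ * Nᵀ * (N.map σ * P.map σ) = Pᵀ * (Nᵀ * N.map σ) * P.map σ := by simp only [Matrix.mul_assoc]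
      _ = Pᵀ * P.map σ := by rw [hN, Matrix.mul_one]
  rw [hXP, Matrix.transpose_mul, Matrix.map_mul, Matrix.diagonal_transpose] at h1
  have h2 : (Matrix.diagonal c).map σ = Matrix.diagonal (fun i => σ (c i)) := by
    rw [Matrix.diagonal_map (map_zero σ)]
  rw [h2] at h1
  have h3 : Matrix.diagonal c * J * Matrix.diagonal (fun i => σ (c i)) = J := by
    calc Matrix.diagonal c * J * Matrix.diagonal (fun i => σ (c i))
        = Matrix.diagonal c * Pᵀ * (P.map σ * Matrix.diagonal (fun i => σ (c i))) := by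
          rw [hJ]; simp only [Matrix.mul_assoc]
      _ = J := h1
  have h4 := congrFun (congrFun h3 (π j)) j
  rw [Matrix.mul_diagonal, Matrix.diagonal_mul, hσ] at h4
  have h5 : (c (π j) * c j ^ q - 1) * J (π j) j = 0 := by linear_combination h4
  exact sub_eq_zero.1 ((mul_eq_zero.1 h5).resolve_right (hπ j))

/-- the orbit of an eigenvalue -/
theorem orbit_val {π : Fin n → Fin n} {c : Fin n → K} (h : ∀ j, c (π j) * c j ^ q = 1) {j : Fin n} (hj : c j ≠ 0)
    (k : ℕ) : c (π^[k] j) = c j ^ ((-(q : ℤ)) ^ k) ∧ c (π^[k] j) ≠ 0 := by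
  induction k with
  | zero => simp [hj]
  | succ k ih =>
    rw [Function.iterate_succ_apply']
    obtain ⟨h1, h2⟩ := ih
    have h3 := h (π^[k] j)
    have h4 : c (π (π^[k] j)) = (c (π^[k] j) ^ q)⁻¹ := eq_inv_of_mul_eq_one_left h3
    refine ⟨?_, ?_⟩
    · rw [h4, h1, pow_succ, _root_.zpow_mul, _root_.zpow_neg, zpow_natCast]
    · intro h0
      rw [h0, zero_mul] at h3
      exact zero_ne_one h3

/-- the data of a regular element -/
structure RegData (q : ℕ) (K : Type*) [Field K] [Algebra F K] (r d : ℕ) (M : Matrix (Fin n) (Fin n) F) where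
  P : Matrix (Fin n) (Fin n) K
  a : Fin n → K
  π : Fin n → Fin n
  j0 : Fin n
  unit : IsUnit P
  diag : M.map (algebraMap F K) * P = P * Matrix.diagonal a
  next : ∀ (X : Matrix (Fin n) (Fin n) F) (c : Fin n → K), Xᵀ * X.map (fun x => x ^ q) = 1 →
      X.map (algebraMap F K) * P = P * Matrix.diagonal c → ∀ j, c (π j) * c j ^ q = 1
  pow : ∀ i, a i ^ r = 1
  ne : a j0 ≠ 1
  orb : Set.InjOn (fun k : ℕ => π^[k] j0) (Set.Iio d)
  inj : Function.Injective a
  one : d + 1 = n → ∃ i, a i = 1

theorem exists_regData (hF : Fintype.card F = q ^ 2) {r d : ℕ} (hr : r.Prime) (hd : orderOf (-(q : ZMod r)) = d)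
    (h2 : 2 ≤ d) (hdn : d = n ∨ d + 1 = n) (hrK : (r : K) ≠ 0) {ζ : K} (hζ : IsPrimitiveRoot ζ r)
    {M : Matrix (Fin n) (Fin n) F} (hM : Mᵀ * M.map (fun x => x ^ q) = 1) (hdet : M.det = 1) (hMr : M ^ r = 1)
    (hM1 : M ≠ 1) : Nonempty (RegData q K r d M) := by
  classical
  have hMr' : (M.map (algebraMap F K)) ^ r = 1 := by
    have h1 : (M.map (algebraMap F K)) ^ r = (M ^ r).map (algebraMap F K) := by
      have := (map_pow (algebraMap F K).mapMatrix M r).symm
      exact this
    rw [h1, hMr, Matrix.map_one _ (map_zero _) (map_one _)]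
  obtain ⟨P, hP, a, ha, hMP⟩ := exists_diag hζ hr.pos hrK hMr'
  obtain ⟨π, hπ⟩ := exists_next (K := K) hF hP
  have hπa := hπ M a hM hMP
  have ha0 : ∀ i, a i ≠ 0 := by
    intro i h0
    have := ha i
    rw [h0, zero_pow hr.ne_zero] at this
    exact zero_ne_one this
  obtain ⟨j0, hj0⟩ : ∃ j, a j ≠ 1 := by
    by_contra hno
    push Not at hno
    apply hM1
    have h1 : a = fun _ => 1 := funext hno
    rw [h1, Matrix.diagonal_one, Matrix.mul_one] at hMP
    have h3 : M.map (algebraMap F K) = 1 := by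
      obtain ⟨u, rfl⟩ := hP
      calc M.map (algebraMap F K) = M.map (algebraMap F K) * (u : Matrix (Fin n) (Fin n) K) * (u⁻¹ : (Matrix (Fin n) (Fin n) K)ˣ) := by
            rw [Matrix.mul_assoc, Units.mul_inv, Matrix.mul_one]
        _ = 1 := by rw [hMP, Units.mul_inv]
    have h4 : M.map (algebraMap F K) = (1 : Matrix (Fin n) (Fin n) F).map (algebraMap F K) := by
      rw [h3, Matrix.map_one _ (map_zero _) (map_one _)]
    exact Matrix.map_injective (algebraMap F K).injective h4
  -- the primitive root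
  have hprim : IsPrimitiveRoot (a j0) r := by
    have h1 : orderOf (a j0) = r := orderOf_eq_prime (ha j0) hj0
      (hp := ⟨hr⟩)
    rw [← h1]
    exact IsPrimitiveRoot.orderOf _
  have hval := fun k => (orbit_val hπa (ha0 j0) k).1
  have horbval : ∀ i < d, ∀ j < d, a (π^[i] j0) = a (π^[j] j0) → i = j := by
    intro i hi j hj hij
    rw [hval, hval] at hij
    refine exp_inj hd hi hj ?_
    rw [← hprim.zpow_eq_one_iff_dvd, zpow_sub₀ (ha0 j0), hij, div_self (zpow_ne_zero _ (ha0 j0))]
  have horb : Set.InjOn (fun k : ℕ => π^[k] j0) (Set.Iio d) := by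
    intro i hi j hj hij
    exact horbval i hi j hj (congrArg a hij)
  have hne1 : ∀ k, a (π^[k] j0) ≠ 1 := by
    intro k hk
    rw [hval, hprim.zpow_eq_one_iff_dvd] at hk
    haveI : Fact r.Prime := ⟨hr⟩
    have h3 := (ZMod.intCast_zmod_eq_zero_iff_dvd _ r).2 hk
    push_cast at h3
    have h4 : (-(q : ZMod r)) = 0 := eq_zero_of_pow_eq_zero h3
    rw [h4] at hd
    have : orderOf (0 : ZMod r) = 0 := by
      rw [orderOf_eq_zero_iff']
      intro m hm
      rw [zero_pow hm.ne']
      exact zero_ne_one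
    omega
  -- the map of indices
  set f : Fin d → Fin n := fun k => π^[k] j0 with hf
  have hfinj : Function.Injective f := fun i j hij => Fin.ext (horb i.2 j.2 hij)
  have hafinj : Function.Injective (a ∘ f) := fun i j hij => Fin.ext (horbval i i.2 j j.2 hij)
  suffices h : Function.Injective a ∧ (d + 1 = n → ∃ i, a i = 1) from
    ⟨⟨P, a, π, j0, hP, hMP, hπ, ha, hj0, horb, h.1, h.2⟩⟩
  rcases hdn with hdn | hdn
  · -- d = n
    have hbij : Function.Bijective f :=
      (Fintype.bijective_iff_injective_and_card f).2 ⟨hfinj, by simp [hdn]⟩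
    refine ⟨?_, fun h => absurd h (by omega)⟩
    intro x y hxy
    obtain ⟨i, rfl⟩ := hbij.2 x
    obtain ⟨j, rfl⟩ := hbij.2 y
    rw [hafinj hxy]
  · -- d + 1 = n
    have hprod : ∏ i, a i = 1 := by
      have h3 := congrArg Matrix.det hMP
      rw [Matrix.det_mul, Matrix.det_mul, Matrix.det_diagonal] at h3
      have h4 : (M.map (algebraMap F K)).det = 1 := by
        have : (M.map (algebraMap F K)).det = algebraMap F K M.det := by
          rw [RingHom.map_det]; rfl
        rw [this, hdet, map_one]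
      rw [h4, one_mul] at h3
      have h5 : P.det ≠ 0 := ((Matrix.isUnit_iff_isUnit_det P).1 hP).ne_zero
      have h6 : P.det * (∏ i, a i) = P.det * 1 := by rw [← h3, mul_one]
      exact mul_left_cancel₀ h5 h6
    have hprodf : ∏ k : Fin d, a (f k) = 1 := by
      have h3 : ∏ k : Fin d, a (f k) = ∏ k ∈ Finset.range d, a j0 ^ ((-(q : ℤ)) ^ k) := by
        rw [Finset.prod_range]
        exact Finset.prod_congr rfl fun k _ => hval k
      rw [h3]
      have h4 : ∀ s : Finset ℕ, ∏ k ∈ s, a j0 ^ ((-(q : ℤ)) ^ k) = a j0 ^ (∑ k ∈ s, (-(q : ℤ)) ^ k) := by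
        intro s
        induction s using Finset.induction_on with
        | empty => simp
        | insert x s hx ih => rw [Finset.prod_insert hx, Finset.sum_insert hx, ih, zpow_add₀ (ha0 j0)]
      rw [h4, hprim.zpow_eq_one_iff_dvd]
      exact exp_sum hr hd h2
    -- the complement of the image
    have hcard : (Finset.univ.image f)ᶜ.card = 1 := by
      rw [Finset.card_compl, Finset.card_image_of_injective _ hfinj, Finset.card_univ, Fintype.card_fin,
        Fintype.card_fin]
      omega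
    obtain ⟨i0, hi0⟩ := Finset.card_eq_one.1 hcard
    have hai0 : a i0 = 1 := by
      have h3 := Finset.prod_compl_mul_prod (Finset.univ.image f) a
      rw [hi0, Finset.prod_singleton, Finset.prod_image fun x _ y _ h => hfinj h, hprod, hprodf, mul_one] at h3
      exact h3
    have hmem : ∀ x, x = i0 ∨ ∃ k, f k = x := by
      intro x
      by_cases hx : x ∈ Finset.univ.image f
      · right
        obtain ⟨k, -, hk⟩ := Finset.mem_image.1 hx
        exact ⟨k, hk⟩
      · left
        have : x ∈ (Finset.univ.image f)ᶜ := Finset.mem_compl.2 hx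
        rw [hi0] at this
        exact Finset.mem_singleton.1 this
    refine ⟨?_, fun _ => ⟨i0, hai0⟩⟩
    intro x y hxy
    rcases hmem x with rfl | ⟨i, rfl⟩
    · rcases hmem y with rfl | ⟨j, rfl⟩
      · rfl
      · exfalso
        rw [hai0] at hxy
        exact hne1 _ hxy.symm
    · rcases hmem y with rfl | ⟨j, rfl⟩
      · exfalso
        rw [hai0] at hxy
        exact hne1 _ hxy
      · rw [hafinj hxy]

variable {r d : ℕ} {M : Matrix (Fin n) (Fin n) F}

/-- the commutant is diagonal -/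
theorem RegData.exists_c (R : RegData q K r d M) {X Y : Matrix (Fin n) (Fin n) F} (hX : X * M = Y * X) {b : Fin n → K}
    (hY : Y.map (algebraMap F K) * R.P = R.P * Matrix.diagonal b) :
    ∃ Z : Matrix (Fin n) (Fin n) K, X.map (algebraMap F K) * R.P = R.P * Z ∧ ∀ i j, Z i j * R.a j = b i * Z i j := by
  classical
  obtain ⟨u, hu⟩ := R.unit
  refine ⟨(u⁻¹ : (Matrix (Fin n) (Fin n) K)ˣ) * (X.map (algebraMap F K) * R.P), ?_, ?_⟩
  · rw [← Matrix.mul_assoc, ← hu, Units.mul_inv, Matrix.one_mul]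
  · intro i j
    have hXM : X.map (algebraMap F K) * M.map (algebraMap F K) = Y.map (algebraMap F K) * X.map (algebraMap F K) := by
      rw [← Matrix.map_mul, ← Matrix.map_mul, hX]
    have h1 : (u⁻¹ : (Matrix (Fin n) (Fin n) K)ˣ) * (X.map (algebraMap F K) * R.P) * Matrix.diagonal R.a
        = Matrix.diagonal b * ((u⁻¹ : (Matrix (Fin n) (Fin n) K)ˣ) * (X.map (algebraMap F K) * R.P)) := by
      have h2 : Matrix.diagonal b = (u⁻¹ : (Matrix (Fin n) (Fin n) K)ˣ) * (Y.map (algebraMap F K) * R.P) := by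
        rw [hY, ← hu, Units.inv_mul_cancel_left]
      calc (u⁻¹ : (Matrix (Fin n) (Fin n) K)ˣ) * (X.map (algebraMap F K) * R.P) * Matrix.diagonal R.a
          = (u⁻¹ : (Matrix (Fin n) (Fin n) K)ˣ) * (X.map (algebraMap F K) * (R.P * Matrix.diagonal R.a)) := by
            simp only [Matrix.mul_assoc]
        _ = (u⁻¹ : (Matrix (Fin n) (Fin n) K)ˣ) * (X.map (algebraMap F K) * M.map (algebraMap F K) * R.P) := by
            rw [← R.diag]; simp only [Matrix.mul_assoc]
        _ = (u⁻¹ : (Matrix (Fin n) (Fin n) K)ˣ) * (Y.map (algebraMap F K) * X.map (algebraMap F K) * R.P) := by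
            rw [hXM]
        _ = (u⁻¹ : (Matrix (Fin n) (Fin n) K)ˣ) * (Y.map (algebraMap F K) * R.P) *
              ((u⁻¹ : (Matrix (Fin n) (Fin n) K)ˣ) * (X.map (algebraMap F K) * R.P)) := by
            rw [← hu]
            simp only [Matrix.mul_assoc]
            rw [Units.mul_inv_cancel_left]
        _ = _ := by rw [← h2]
    have h3 := congrFun (congrFun h1 i) j
    rwa [Matrix.mul_diagonal, Matrix.diagonal_mul] at h3

theorem RegData.exists_diag (R : RegData q K r d M) {X : Matrix (Fin n) (Fin n) F} (hX : X * M = M * X) :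
    ∃ c : Fin n → K, X.map (algebraMap F K) * R.P = R.P * Matrix.diagonal c := by
  classical
  obtain ⟨Z, h1, h2⟩ := R.exists_c hX R.diag
  refine ⟨fun i => Z i i, ?_⟩
  rw [h1]
  congr 1
  ext i j
  rw [Matrix.diagonal_apply]
  split_ifs with hij
  · rw [hij]
  · have h3 : Z i j * (R.a j - R.a i) = 0 := by linear_combination h2 i j
    exact (mul_eq_zero.1 h3).resolve_right (sub_ne_zero.2 fun h => hij (R.inj h.symm))

/-- an element of the centraliser is determined by one eigenvalue -/
theorem RegData.rigid (R : RegData q K r d M) (hdn : d = n ∨ d + 1 = n) {X : Matrix (Fin n) (Fin n) F}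
    (hXu : Xᵀ * X.map (fun x => x ^ q) = 1) (hdet : X.det = 1) {c : Fin n → K}
    (hX : X.map (algebraMap F K) * R.P = R.P * Matrix.diagonal c) (hc : c R.j0 = 1) : X = 1 := by
  classical
  have hn := R.next X c hXu hX
  have h1 : ∀ k, c (R.π^[k] R.j0) = 1 := by
    intro k
    rw [(orbit_val hn (by rw [hc]; exact one_ne_zero) k).1, hc, _root_.one_zpow]
  set f : Fin d → Fin n := fun k => R.π^[k] R.j0 with hf
  have hfinj : Function.Injective f := fun i j hij => Fin.ext (R.orb i.2 j.2 hij)
  have hall : ∀ i, c i = 1 := by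
    rcases hdn with hdn | hdn
    · have hbij : Function.Bijective f :=
        (Fintype.bijective_iff_injective_and_card f).2 ⟨hfinj, by simp [hdn]⟩
      intro x
      obtain ⟨i, rfl⟩ := hbij.2 x
      exact h1 _
    · have hprod : ∏ i, c i = 1 := by
        have h3 := congrArg Matrix.det hX
        rw [Matrix.det_mul, Matrix.det_mul, Matrix.det_diagonal] at h3
        have h4 : (X.map (algebraMap F K)).det = 1 := by
          have : (X.map (algebraMap F K)).det = algebraMap F K X.det := by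
            rw [RingHom.map_det]; rfl
          rw [this, hdet, map_one]
        rw [h4, one_mul] at h3
        have h5 : R.P.det ≠ 0 := ((Matrix.isUnit_iff_isUnit_det R.P).1 R.unit).ne_zero
        have h6 : R.P.det * (∏ i, c i) = R.P.det * 1 := by rw [← h3, mul_one]
        exact mul_left_cancel₀ h5 h6
      have hcard : (Finset.univ.image f)ᶜ.card = 1 := by
        rw [Finset.card_compl, Finset.card_image_of_injective _ hfinj, Finset.card_univ, Fintype.card_fin,
          Fintype.card_fin]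
        omega
      obtain ⟨i0, hi0⟩ := Finset.card_eq_one.1 hcard
      have hci0 : c i0 = 1 := by
        have h3 := Finset.prod_compl_mul_prod (Finset.univ.image f) c
        rw [hi0, Finset.prod_singleton, Finset.prod_image fun x _ y _ h => hfinj h, hprod] at h3
        have h4 : ∏ k : Fin d, c (f k) = 1 := Finset.prod_eq_one fun k _ => h1 k
        rw [h4, mul_one] at h3
        exact h3
      intro x
      by_cases hx : x ∈ Finset.univ.image f
      · obtain ⟨k, -, hk⟩ := Finset.mem_image.1 hx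
        rw [← hk]
        exact h1 _
      · have : x ∈ (Finset.univ.image f)ᶜ := Finset.mem_compl.2 hx
        rw [hi0, Finset.mem_singleton] at this
        rw [this, hci0]
  have h2 : c = fun _ => 1 := funext hall
  rw [h2, Matrix.diagonal_one, Matrix.mul_one] at hX
  have h3 : X.map (algebraMap F K) = 1 := by
    obtain ⟨u, hu⟩ := R.unit
    rw [← hu] at hX
    calc X.map (algebraMap F K) = X.map (algebraMap F K) * (u : Matrix (Fin n) (Fin n) K) * (u⁻¹ : (Matrix (Fin n) (Fin n) K)ˣ) := by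
          rw [Matrix.mul_assoc, Units.mul_inv, Matrix.mul_one]
      _ = 1 := by rw [hX, Units.mul_inv]
  have h4 : X.map (algebraMap F K) = (1 : Matrix (Fin n) (Fin n) F).map (algebraMap F K) := by
    rw [h3, Matrix.map_one _ (map_zero _) (map_one _)]
  exact Matrix.map_injective (algebraMap F K).injective h4

/-- a matrix conjugate to all its powers prime to `r` -/
theorem RegData.le_of_conj (R : RegData q K r d M) (hr : r.Prime) (hdn : d = n ∨ d + 1 = n)
    (hc : ∀ i : ℕ, i.Coprime r → ∃ Y : Matrix (Fin n) (Fin n) F, IsUnit Y ∧ Y * M = M ^ i * Y) : r ≤ d + 1 := by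
  classical
  have hprim : IsPrimitiveRoot (R.a R.j0) r := by
    have h1 : orderOf (R.a R.j0) = r := orderOf_eq_prime (R.pow R.j0) R.ne (hp := ⟨hr⟩)
    have h2 := IsPrimitiveRoot.orderOf (R.a R.j0)
    rwa [h1] at h2
  have hpow : ∀ i : ℕ, (M ^ i).map (algebraMap F K) * R.P = R.P * Matrix.diagonal (fun k => R.a k ^ i) := by
    intro i
    induction i with
    | zero =>
      rw [pow_zero, Matrix.map_one _ (map_zero _) (map_one _)]
      simp
    | succ i ih =>
      rw [pow_succ, Matrix.map_mul, Matrix.mul_assoc, R.diag, ← Matrix.mul_assoc, ih, Matrix.mul_assoc,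
        Matrix.diagonal_mul_diagonal]
      simp only [pow_succ]
  have hmem : ∀ i : ℕ, i.Coprime r → ∃ l, R.a l = R.a R.j0 ^ i := by
    intro i hi
    obtain ⟨Y, hY, hYM⟩ := hc i hi
    obtain ⟨Z, h1, h2⟩ := R.exists_c hYM (hpow i)
    have hZu : IsUnit Z := by
      have h3 : IsUnit (Y.map (algebraMap F K) * R.P) := by
        have : IsUnit (Y.map (algebraMap F K)) := hY.map (algebraMap F K).mapMatrix
        exact this.mul R.unit
      rw [h1] at h3
      rw [Matrix.isUnit_iff_isUnit_det, Matrix.det_mul] at h3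
      rw [Matrix.isUnit_iff_isUnit_det]
      exact isUnit_of_mul_isUnit_right h3
    have h4 : ∃ l, Z R.j0 l ≠ 0 := by
      by_contra hno
      push Not at hno
      have h5 := Matrix.det_eq_zero_of_row_eq_zero R.j0 hno
      have h6 := (Matrix.isUnit_iff_isUnit_det Z).1 hZu
      rw [h5] at h6
      exact not_isUnit_zero h6
    obtain ⟨l, hl⟩ := h4
    refine ⟨l, ?_⟩
    have h5 := h2 R.j0 l
    have h6 : Z R.j0 l * (R.a l - R.a R.j0 ^ i) = 0 := by linear_combination h5
    exact sub_eq_zero.1 ((mul_eq_zero.1 h6).resolve_left hl)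
  have hcop : ∀ i : ℕ, 0 < i → i < r → i.Coprime r := fun i h0 h1 =>
    (Nat.coprime_of_lt_prime h0.ne' h1 hr).symm
  rcases hdn with hdn | hdn
  · -- `r - 1 ≤ n`
    choose l hl using fun i : Fin (r - 1) => hmem (i + 1) (hcop _ (by omega) (by omega))
    have hlinj : Function.Injective l := by
      intro i j hij
      have h1 : R.a R.j0 ^ ((i : ℕ) + 1) = R.a R.j0 ^ ((j : ℕ) + 1) := by rw [← hl i, ← hl j, hij]
      have := hprim.pow_inj (by omega) (by omega) h1
      exact Fin.ext (by omega)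
    have := Fintype.card_le_of_injective l hlinj
    rw [Fintype.card_fin, Fintype.card_fin] at this
    omega
  · obtain ⟨i0, hi0⟩ := R.one hdn
    have hmem' : ∀ i : Fin r, ∃ l, R.a l = R.a R.j0 ^ (i : ℕ) := by
      intro i
      rcases Nat.eq_zero_or_pos (i : ℕ) with h0 | h0
      · exact ⟨i0, by rw [h0, pow_zero, hi0]⟩
      · exact hmem i (hcop _ h0 i.2)
    choose l hl using hmem'
    have hlinj : Function.Injective l := by
      intro i j hij
      have h1 : R.a R.j0 ^ (i : ℕ) = R.a R.j0 ^ (j : ℕ) := by rw [← hl i, ← hl j, hij]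
      exact Fin.ext (hprim.pow_inj i.2 j.2 h1)
    have := Fintype.card_le_of_injective l hlinj
    rw [Fintype.card_fin, Fintype.card_fin] at this
    omega

end main

end Cfsg.Agent.H876.OZU
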